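import Mathlib

set_option autoImplicit false

namespace CfsgLib.ClassSizes

variable {G : Type*} [Group G]

/-- All prime divisors of the order of `g` lie in `π`. -/
def IsPiElt (π : Set ℕ) (g : G) : Prop := ∀ q : ℕ, q.Prime → q ∣ orderOf g → q ∈ π

theorem isPiElt_of_dvd {H : Type*} [Group H] {π : Set ℕ} {g : G} {h : H}
    (hd : orderOf h ∣ orderOf g) (hg : IsPiElt π g) : IsPiElt π h :=
  fun q hq hqd => hg q hq (hqd.trans hd)

theorem IsPiElt.inv_mul {π : Set ℕ} {a b : G} (hc : Commute a b) (ha : IsPiElt π a)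
    (hb : IsPiElt π b) : IsPiElt π (a⁻¹ * b) := by
  intro q hq hd
  have h := (hd.trans hc.inv_left.orderOf_mul_dvd_lcm).trans (Nat.lcm_dvd_mul _ _)
  rw [orderOf_inv] at h
  exact (hq.dvd_mul.1 h).elim (ha q hq) (hb q hq)

theorem eq_one_of_isPiElt_compl [Finite G] {π : Set ℕ} {a : G} (h1 : IsPiElt π a)
    (h2 : IsPiElt πᶜ a) : a = 1 := by
  by_contra ha
  obtain ⟨q, hq, hd⟩ := Nat.exists_prime_and_dvd (mt orderOf_eq_one_iff.1 ha)
  exact h2 q hq hd (h1 q hq hd)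

/-- Existence of the decomposition into `π`- and `π'`-part inside the cyclic group. -/
theorem exists_piPart_decomp [Finite G] (π : Set ℕ) (y : G) :
    ∃ a ∈ Subgroup.zpowers y, ∃ b ∈ Subgroup.zpowers y,
      IsPiElt π a ∧ IsPiElt πᶜ b ∧ a * b = y := by
  classical
  set n := orderOf y with hn
  have hn0 : n ≠ 0 := (orderOf_pos y).ne'
  set k := ∏ q ∈ n.primeFactors.filter (fun q => q ∈ π), q ^ n.factorization q with hk
  set l := ∏ q ∈ n.primeFactors.filter (fun q => q ∉ π), q ^ n.factorization q with hl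
  have hkl : k * l = n := by
    rw [hk, hl, Finset.prod_filter_mul_prod_filter_not]
    exact Nat.prod_factorization_pow_eq_self hn0
  have hprimes : ∀ (s : Finset ℕ), s ⊆ n.primeFactors → ∀ q : ℕ, q.Prime →
      q ∣ ∏ r ∈ s, r ^ n.factorization r → q ∈ s := by
    intro s hs q hq hd
    obtain ⟨r, hr, hqr⟩ := (hq.prime.dvd_finset_prod_iff _).1 hd
    rwa [(Nat.prime_dvd_prime_iff_eq hq (Nat.prime_of_mem_primeFactors (hs hr))).1
      (hq.dvd_of_dvd_pow hqr)]
  have hkπ : ∀ q : ℕ, q.Prime → q ∣ k → q ∈ π := fun q hq hd =>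
    (Finset.mem_filter.1 (hprimes _ (Finset.filter_subset _ _) q hq hd)).2
  have hlπ : ∀ q : ℕ, q.Prime → q ∣ l → q ∈ πᶜ := fun q hq hd =>
    (Finset.mem_filter.1 (hprimes _ (Finset.filter_subset _ _) q hq hd)).2
  have hcop : k.Coprime l := Nat.coprime_of_dvd fun q hq h1 h2 => hlπ q hq h2 (hkπ q hq h1)
  obtain ⟨e, he1, he2⟩ := Nat.chineseRemainder hcop 1 0
  -- `e ≡ 1 mod k` and `e ≡ 0 mod l`
  have hle : l ∣ e := Nat.modEq_zero_iff_dvd.1 he2
  refine ⟨y ^ e, Subgroup.pow_mem _ (Subgroup.mem_zpowers y) e, (y ^ e)⁻¹ * y,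
    Subgroup.mul_mem _ (Subgroup.inv_mem _ (Subgroup.pow_mem _ (Subgroup.mem_zpowers y) e))
      (Subgroup.mem_zpowers y), ?_, ?_, mul_inv_cancel_left _ _⟩
  · intro q hq hd
    refine hkπ q hq (hd.trans (orderOf_dvd_of_pow_eq_one ?_))
    rw [← pow_mul, ← orderOf_dvd_iff_pow_eq_one, ← hn, ← hkl, Nat.mul_comm k l]
    exact Nat.mul_dvd_mul_right hle k
  · intro q hq hd
    refine hlπ q hq (hd.trans (orderOf_dvd_of_pow_eq_one ?_))
    have hcm : Commute ((y ^ e)⁻¹) y := (Commute.pow_self y e).inv_left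
    rw [hcm.mul_pow, inv_pow, inv_mul_eq_one, ← pow_mul, pow_eq_pow_iff_modEq, ← hn, ← hkl]
    simpa using Nat.ModEq.mul_right' l he1

/-- Uniqueness of the decomposition. -/
theorem piPart_unique [Finite G] {π : Set ℕ} {a b a' b' : G} (ha : IsPiElt π a)
    (hb : IsPiElt πᶜ b) (hab : Commute a b) (ha' : IsPiElt π a') (hb' : IsPiElt πᶜ b')
    (hab' : Commute a' b') (h : a * b = a' * b') : a = a' ∧ b = b' := by
  -- compare both with the decomposition inside the cyclic group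
  suffices H : ∀ c d : G, IsPiElt π c → IsPiElt πᶜ d → Commute c d → c * d = a * b →
      ∀ u ∈ Subgroup.zpowers (a * b), ∀ v ∈ Subgroup.zpowers (a * b), IsPiElt π u →
      IsPiElt πᶜ v → u * v = a * b → c = u ∧ d = v by
    obtain ⟨u, hu, v, hv, hu', hv', huv⟩ := exists_piPart_decomp π (a * b)
    obtain ⟨e1, e2⟩ := H a b ha hb hab rfl u hu v hv hu' hv' huv
    obtain ⟨e3, e4⟩ := H a' b' ha' hb' hab' h.symm u hu v hv hu' hv' huv
    exact ⟨e1.trans e3.symm, e2.trans e4.symm⟩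
  intro c d hc hd hcd hcdy u hu v hv hu' hv' huv
  have hcu : Commute c u := by
    obtain ⟨k, rfl⟩ := Subgroup.mem_zpowers_iff.1 hu
    rw [← hcdy]
    exact ((Commute.refl c).mul_right hcd).zpow_right k
  have hdv : Commute d v := by
    obtain ⟨k, rfl⟩ := Subgroup.mem_zpowers_iff.1 hv
    rw [← hcdy]
    exact (hcd.symm.mul_right (Commute.refl d)).zpow_right k
  have he : u⁻¹ * c = v * d⁻¹ := by
    rw [inv_mul_eq_iff_eq_mul, ← mul_assoc, huv, ← hcdy, mul_inv_cancel_right]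
  have h1 : IsPiElt π (u⁻¹ * c) := hu'.inv_mul hcu.symm hc
  have h2 : IsPiElt πᶜ (u⁻¹ * c) := by
    rw [he, ← (hdv.inv_left).eq]
    exact hd.inv_mul hdv hv'
  have h3 : u⁻¹ * c = 1 := eq_one_of_isPiElt_compl h1 h2
  rw [inv_mul_eq_one] at h3
  refine ⟨h3.symm, ?_⟩
  rw [← huv, h3] at hcdy
  exact mul_left_cancel hcdy

end CfsgLib.ClassSizes
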