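import Mathlib

set_option autoImplicit false

open scoped commutatorElement

namespace CfsgLib.ClassSizes

variable {G : Type*} [Group G]

/-- Isaacs' lemma: if `A` is abelian normal and the class of `x` is of minimal non-trivial size,
then all `⁅a, x⁆` with `a ∈ A` are central. -/
theorem commutator_mem_center_of_small_class [Finite G] (A : Subgroup G) [A.Normal]
    (hA : ∀ a ∈ A, ∀ b ∈ A, a * b = b * a) {m : ℕ}
    (hmin : ∀ y : G, 1 < (Subgroup.centralizer ({y} : Set G)).index →
      m ≤ (Subgroup.centralizer ({y} : Set G)).index)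
    {x : G} (hx : (Subgroup.centralizer ({x} : Set G)).index = 1 ∨
      (Subgroup.centralizer ({x} : Set G)).index = m)
    {a : G} (ha : a ∈ A) : ⁅a, x⁆ ∈ Subgroup.center G := by
  classical
  set C := Subgroup.centralizer ({x} : Set G) with hC
  set u := ⁅a, x⁆ with hu
  have hmemA : ∀ b ∈ A, ⁅b, x⁆ ∈ A := fun b hb => by
    have h := A.mul_mem hb (Subgroup.Normal.conj_mem inferInstance b⁻¹ (A.inv_mem hb) x)
    rwa [← mul_assoc, ← mul_assoc, ← commutatorElement_def] at h
  by_cases hu1 : u = 1
  · rw [hu1]; exact Subgroup.one_mem _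
  have hxm : C.index = m := by
    refine hx.resolve_left fun h => hu1 ?_
    rw [hu, commutatorElement_eq_one_iff_mul_comm]
    exact Subgroup.mem_centralizer_singleton_iff.1
      (show a ∈ C by rw [Subgroup.index_eq_one.1 h]; exact Subgroup.mem_top a)
  set R : Set G := (fun b => ⁅b, x⁆) '' (A : Set G) with hR
  have hR1 : (1 : G) ∈ R := ⟨1, A.one_mem, commutatorElement_one_left x⟩
  let D : Subgroup G := C ⊓ Subgroup.centralizer ({u} : Set G)
  have horb : ∀ c : C, (c : G) * u * (c : G)⁻¹ ∈ R \ {1} := by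
    intro c
    refine ⟨⟨(c : G) * a * (c : G)⁻¹, Subgroup.Normal.conj_mem inferInstance a ha _, ?_⟩, ?_⟩
    · have hc : (c : G) * x * (c : G)⁻¹ = x := by
        rw [Subgroup.mem_centralizer_singleton_iff.1 c.2, mul_inv_cancel_right]
      show ⁅(c : G) * a * (c : G)⁻¹, x⁆ = (c : G) * ⁅a, x⁆ * (c : G)⁻¹
      nth_rewrite 1 [← hc]
      exact (conjugate_commutatorElement a x (c : G)).symm
    · intro h
      exact hu1 (conj_eq_one_iff.1 h)
  have hpre : ∀ r : R, ∃ b ∈ A, ⁅b, x⁆ = (r : G) := fun r => r.2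
  choose f hfA hf using hpre
  -- R × D injects in the centralizer of u
  have hinj : Nat.card R * Nat.card D ≤ Nat.card (Subgroup.centralizer ({u} : Set G)) := by
    rw [← Nat.card_prod]
    refine Nat.card_le_card_of_injective
      (fun rd : R × D => ⟨f rd.1 * (rd.2 : G), Subgroup.mul_mem _
        (Subgroup.mem_centralizer_singleton_iff.2 (hA _ (hfA rd.1) u (hmemA a ha)))
        rd.2.2.2⟩) ?_
    rintro ⟨r1, d1⟩ ⟨r2, d2⟩ h
    have h' : f r1 * (d1 : G) = f r2 * (d2 : G) := congrArg Subtype.val h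
    have hz : (f r2)⁻¹ * f r1 ∈ C := by
      have e : (f r2)⁻¹ * f r1 = (d2 : G) * (d1 : G)⁻¹ := by
        rw [eq_mul_inv_iff_mul_eq, mul_assoc, h', inv_mul_cancel_left]
      rw [e]
      exact C.mul_mem d2.2.1 (C.inv_mem d1.2.1)
    have hr : r1 = r2 := by
      apply Subtype.ext
      rw [← hf r1, ← hf r2]
      set z := (f r2)⁻¹ * f r1 with hzdef
      have e1 : f r1 = f r2 * z := by rw [hzdef, mul_inv_cancel_left]
      have e2 : z * x = x * z := Subgroup.mem_centralizer_singleton_iff.1 hz
      rw [e1, commutatorElement_def, commutatorElement_def]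
      calc f r2 * z * x * (f r2 * z)⁻¹ * x⁻¹ = f r2 * (z * x) * z⁻¹ * (f r2)⁻¹ * x⁻¹ := by group
        _ = f r2 * x * (f r2)⁻¹ * x⁻¹ := by rw [e2]; group
    subst hr
    exact Prod.ext rfl (Subtype.ext (mul_left_cancel h'))
  -- C injects in the orbit × D
  have hCle : Nat.card C ≤ Nat.card ↥(R \ {1} : Set G) * Nat.card D := by
    rw [← Nat.card_prod]
    let o : C → ↥(R \ {1} : Set G) := fun c => ⟨_, horb c⟩
    let s : ↥(R \ {1} : Set G) → C := Function.invFun o
    refine Nat.card_le_card_of_injective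
      (fun c : C => (o c, (⟨((s (o c))⁻¹ * c : C), ?_⟩ : D))) ?_
    · refine ⟨((s (o c))⁻¹ * c : C).2, Subgroup.mem_centralizer_singleton_iff.2 ?_⟩
      have e : (s (o c) : G) * u * (s (o c) : G)⁻¹ = (c : G) * u * (c : G)⁻¹ :=
        congrArg Subtype.val (Function.invFun_eq (f := o) ⟨c, rfl⟩)
      rw [mul_inv_eq_iff_eq_mul] at e
      push_cast
      calc (s (o c) : G)⁻¹ * (c : G) * u = (s (o c) : G)⁻¹ * ((c : G) * u * (c : G)⁻¹ * c) := by
            group
        _ = u * ((s (o c) : G)⁻¹ * (c : G)) := by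
            have e' : (c : G) * u * (c : G)⁻¹ = (s (o c) : G) * u * (s (o c) : G)⁻¹ := by
              rw [e]; group
            rw [e']; group
    · intro c1 c2 h
      have h1 : o c1 = o c2 := congrArg Prod.fst h
      have h2 : ((s (o c1))⁻¹ * c1 : C) = (s (o c2))⁻¹ * c2 := by
        apply Subtype.ext
        exact congrArg (fun z : ↥(R \ {1} : Set G) × D => (z.2 : G)) h
      rw [h1] at h2
      exact mul_left_cancel h2
  have hlt : Nat.card C < Nat.card (Subgroup.centralizer ({u} : Set G)) := by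
    have h1 : Nat.card ↥(R \ {1} : Set G) < Nat.card R := by
      rw [Nat.card_coe_set_eq, Nat.card_coe_set_eq]
      exact Set.ncard_diff_singleton_lt_of_mem hR1 (Set.toFinite R)
    calc Nat.card C ≤ _ := hCle
      _ < Nat.card R * Nat.card D := Nat.mul_lt_mul_of_pos_right h1 Nat.card_pos
      _ ≤ _ := hinj
  have hidx : (Subgroup.centralizer ({u} : Set G)).index < m := by
    rw [← hxm]
    by_contra hge
    rw [not_lt] at hge
    have h2 := Nat.mul_lt_mul_of_lt_of_le hlt hge
      (Nat.pos_of_ne_zero Subgroup.index_ne_zero_of_finite)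
    rw [Subgroup.card_mul_index, Subgroup.card_mul_index] at h2
    exact lt_irrefl _ h2
  have h1 : (Subgroup.centralizer ({u} : Set G)).index = 1 := by
    by_contra h
    have h0 := (Subgroup.centralizer ({u} : Set G)).index_ne_zero_of_finite
    exact absurd (hmin u (by omega)) (not_le.2 hidx)
  rw [Subgroup.mem_center_iff]
  intro g
  exact Subgroup.mem_centralizer_singleton_iff.1
    (show g ∈ Subgroup.centralizer ({u} : Set G) by
      rw [Subgroup.index_eq_one.1 h1]; exact Subgroup.mem_top g)

/-- Isaacs: with a self-centralizing abelian normal subgroup, the subgroup generated by the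
elements of minimal class size has class at most `3`. -/
theorem upperCentralSeries_three_eq_top [Finite G] (A : Subgroup G) [A.Normal]
    (hA : IsMulCommutative A) (hCA : Subgroup.centralizer (A : Set G) = A) {m : ℕ}
    (hmin : ∀ y : G, 1 < (Subgroup.centralizer ({y} : Set G)).index →
      m ≤ (Subgroup.centralizer ({y} : Set G)).index)
    (S : Set G) (hS : ∀ x ∈ S, (Subgroup.centralizer ({x} : Set G)).index = 1 ∨
      (Subgroup.centralizer ({x} : Set G)).index = m) :
    Subgroup.upperCentralSeries ↥(Subgroup.closure S) 3 = ⊤ := by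
  set M := Subgroup.closure S with hM
  have hA' : ∀ a ∈ A, ∀ b ∈ A, a * b = b * a := fun a ha b hb =>
    congrArg Subtype.val (hA.is_comm.comm ⟨a, ha⟩ ⟨b, hb⟩)
  let W : Subgroup G := (Subgroup.centralizer
    ((QuotientGroup.mk' (Subgroup.center G)) '' (A : Set G))).comap
      (QuotientGroup.mk' (Subgroup.center G))
  have hW : ∀ y : G, y ∈ W ↔ ∀ a ∈ A, ⁅a, y⁆ ∈ Subgroup.center G := by
    intro y
    simp only [W, Subgroup.mem_comap, Subgroup.mem_centralizer_iff, Set.forall_mem_image,
      SetLike.mem_coe]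
    refine forall₂_congr fun a _ => ?_
    rw [← commutatorElement_eq_one_iff_mul_comm, ← map_commutatorElement]
    exact QuotientGroup.eq_one_iff _
  have hMW : M ≤ W := (Subgroup.closure_le W).2 fun y hy => (hW y).2 fun a ha =>
    commutator_mem_center_of_small_class A hA' hmin (hS y hy) ha
  have h1 : ⁅A, M⁆ ≤ Subgroup.center G :=
    Subgroup.commutator_le.2 fun a ha y hy => (hW y).1 (hMW hy) a ha
  have hz : ∀ K : Subgroup G, K ≤ Subgroup.center G → ⁅K, M⁆ = ⊥ := fun K hK => by
    rw [Subgroup.commutator_eq_bot_iff_le_centralizer]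
    exact hK.trans (Subgroup.center_le_centralizer _)
  have h2 : ⁅⁅M, M⁆, A⁆ = ⊥ :=
    Subgroup.commutator_commutator_eq_bot_of_rotate
      (hz _ (by rw [Subgroup.commutator_comm]; exact h1)) (hz _ h1)
  have h3 : ⁅M, M⁆ ≤ A := by
    rw [Subgroup.commutator_eq_bot_iff_le_centralizer, hCA] at h2
    exact h2
  rw [eq_top_iff]
  intro a _
  rw [Subgroup.mem_upperCentralSeries_succ_iff]
  intro b
  rw [Subgroup.mem_upperCentralSeries_succ_iff]
  intro c
  rw [Subgroup.upperCentralSeries_one, Subgroup.mem_center_iff]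
  intro d
  apply Subtype.ext
  have hab : ⁅(a : G), (b : G)⁆ ∈ A := h3 (Subgroup.commutator_mem_commutator a.2 b.2)
  exact Subgroup.mem_center_iff.1 (h1 (Subgroup.commutator_mem_commutator hab c.2)) (d : G)

end CfsgLib.ClassSizes
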